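import Cfsg.Agent.Lib.SC2.Model
import Cfsg.Agent.Lib.Golay.Syl24

/-!
# The Sylow 2-subgroup of `M₂₄` modulo its centre is `(V ⊕ V*) D₈`
-/

set_option autoImplicit false

namespace Cfsg.Lib.PC

theorem IsPC.exists_hom {G H : Type*} [Group G] [Group H] {l : List (G × ℕ)} {m : List (H × ℕ)}
    {cs : List (ℕ × List ℕ)} (h : l.map Prod.snd = m.map Prod.snd) (hl : IsPC l cs) (hm : IsPC m cs)
    (h1 : Nat.card (gen l) = rad l) : ∃ φ : gen l →* H, ∀ e, φ ⟨ev l e, ev_mem_gen l e⟩ = ev m e := by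
  have hD := hl.diagL h hm
  have hlen : l.length = m.length := by simpa using congrArg List.length h
  have hrad : rad (PC.diagL l m) = rad l := by
    unfold rad PC.diagL
    congr 1
    apply List.ext_getElem
    · simp [hlen]
    · intro i _ _; simp
  obtain ⟨hfin, hcard⟩ := hD.card_le
  have hmem : ∀ x ∈ gen (PC.diagL l m), x.1 ∈ gen l := by
    intro x hx
    obtain ⟨e, -, rfl⟩ := hD.exists_ev hx
    rw [ev_diagL h]
    exact ev_mem_gen _ _
  let f1 : gen (PC.diagL l m) →* gen l :=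
    ((MonoidHom.fst G H).comp (Subgroup.subtype _)).codRestrict _ fun x => hmem x x.2
  have e1 : ∀ e, f1 ⟨_, ev_mem_gen _ e⟩ = ⟨ev l e, ev_mem_gen l e⟩ := fun e =>
    Subtype.ext (congrArg Prod.fst (ev_diagL h e))
  have s1 : Function.Surjective f1 := by
    rintro ⟨y, hy⟩
    obtain ⟨e, -, rfl⟩ := hl.exists_ev hy
    exact ⟨_, e1 e⟩
  have b1 : Function.Bijective f1 := s1.bijective_of_nat_card_le (by rw [h1, ← hrad]; exact hcard)
  refine ⟨((MonoidHom.snd G H).comp (Subgroup.subtype _)).comp (MulEquiv.ofBijective f1 b1).symm.toMonoidHom,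
    fun e => ?_⟩
  rw [← e1]
  exact (congrArg (fun x : gen (PC.diagL l m) => x.1.2)
    ((MulEquiv.ofBijective f1 b1).symm_apply_apply _)).trans (congrArg Prod.snd (ev_diagL h e))

end Cfsg.Lib.PC

namespace Cfsg.Lib.FT.VV
open Subgroup Cfsg.Lib Cfsg.Lib.FT Equiv Cfsg.Lib.PC Cfsg.Lib.Golay

/-- the semidirect product -/
@[ext] structure M9 where
  v : V6
  d : T3
  deriving Fintype

instance : DecidableEq M9 := fun x y => decidable_of_iff (x.v = y.v ∧ x.d = y.d) M9.ext_iff.symm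
instance : Mul M9 := ⟨fun x y => ⟨x.v + x.d • y.v, x.d * y.d⟩⟩
instance : One M9 := ⟨⟨0, 1⟩⟩
instance : Inv M9 := ⟨fun x => ⟨x.d⁻¹ • x.v, x.d⁻¹⟩⟩
theorem M9.mul_def (x y : M9) : x * y = ⟨x.v + x.d • y.v, x.d * y.d⟩ := rfl
instance : Group M9 := Group.ofLeftAxioms
  (fun x y z => by simp only [M9.mul_def, smul_add', mul_smul, add_assoc, mul_assoc])
  (fun x => M9.ext ((zero_add ((1 : T3) • x.v)).trans (one_smul T3 x.v)) (one_mul x.d))
  (fun x => M9.ext (add_self (x.d⁻¹ • x.v)) (inv_mul_cancel x.d))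

def m9 : List (M9 × ℕ) :=
  [(⟨0, tb⟩, 2), (⟨0, tz⟩, 2), (⟨0, ta⟩, 2), (⟨e6 1, 1⟩, 2), (⟨e6 0 + e6 2, 1⟩, 2), (⟨e6 2, 1⟩, 2),
    (⟨e6 5, 1⟩, 2), (⟨e6 4, 1⟩, 2), (⟨e6 0 + e6 3, 1⟩, 2), (1, 2)]

theorem m9_pc : IsPC m9 syl24cert := by
  simp only [m9, syl24cert, IsPC]
  decide +kernel

def cd (x : M9) : ℕ :=
  let u := x.d⁻¹ • x.v
  x.d.b.val + 2 * x.d.c.val + 4 * x.d.a.val + 8 * (u 1).val + 16 * (u 0 + u 3).val + 32 * (u 0 + u 2 + u 3).val +
    64 * (u 5).val + 128 * (u 4).val + 256 * (u 3).val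

theorem m9_sur : ∀ x : M9, ev m9 (cd x) = x := by decide +kernel

theorem map_center_equiv {X Y : Type*} [Group X] [Group Y] (e : X ≃* Y) :
    (center X).map (e : X →* Y) = center Y := by
  ext y
  obtain ⟨x, rfl⟩ := e.surjective y
  refine ⟨?_, fun h => ⟨x, mem_center_iff.2 fun g => e.injective (by simpa using mem_center_iff.1 h (e g)), rfl⟩⟩
  rintro ⟨x, hx, e1⟩
  refine mem_center_iff.2 fun g => ?_
  obtain ⟨g, rfl⟩ := e.surjective g
  rw [← e1]
  simpa using congrArg e (mem_center_iff.1 hx g)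

theorem nonempty_equiv (P : Sylow 2 M24) :
    Nonempty (M9 ≃* (↥(P : Subgroup M24) ⧸ center ↥(P : Subgroup M24))) := by
  obtain ⟨l, z, h⟩ := exists_sylData
  obtain ⟨e⟩ := h.nonempty_equiv P
  obtain ⟨φ, hφ⟩ := IsPC.exists_hom (h.rep.map_snd.trans (by decide)) h.pc m9_pc (h.card.trans (by
    rw [h.rep.rad]; decide))
  have hs : Function.Surjective φ := fun x => ⟨_, (hφ _).trans (m9_sur x)⟩
  have : Finite (gen l) := Nat.finite_of_card_ne_zero (by rw [h.card]; norm_num)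
  have h1 := φ.ker.index_mul_card
  rw [index_ker, MonoidHom.range_eq_top.2 hs, card_top, h.card,
    show Nat.card M9 = 512 by rw [Nat.card_eq_fintype_card]; decide +kernel] at h1
  have h2 : φ.ker = center (gen l) := by
    refine eq_of_le_of_card_ge (pg_le_center_of_card_eq (p := 2) (IsPGroup.of_card (n := 10) h.card) (by omega)) ?_
    have : (center (gen l) : Set (gen l)) = {1, ⟨z, gen_drop_le l 3 h.z_mem⟩} := by
      ext x
      simp only [SetLike.mem_coe, h.mem_center, Set.mem_insert_iff, Set.mem_singleton_iff, Subtype.ext_iff,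
        OneMemClass.coe_one]
    rw [← SetLike.coe_sort_coe, this, Nat.card_coe_set_eq, Set.ncard_pair
      fun e => h.z_ne (congrArg Subtype.val e).symm]
    omega
  exact ⟨(QuotientGroup.quotientKerEquivOfSurjective φ hs).symm.trans
    (QuotientGroup.congr _ _ e (by rw [h2]; exact map_center_equiv e))⟩

theorem normal_of_equiv {G : Type*} [Group G] [Finite G] {A S : Subgroup G} (hS : IsSylowIn 2 S ⊤) (e : M9 ≃* S)
    (huniq : ∀ B ≤ S, IsMulCommutative B → Nat.card B = 64 → B = A) : (A ⊔ oddCore G).Normal := by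
  let ι : M9 →* G := S.subtype.comp e.toMonoidHom
  have hι : Function.Injective ι := S.subtype_injective.comp e.injective
  let j : Multiplicative V6 →* M9 := MonoidHom.mk' (fun v => ⟨v.toAdd, 1⟩) fun u v =>
    M9.ext (by simp [M9.mul_def]) (by simp [M9.mul_def])
  have hj : Function.Injective (ι.comp j) := hι.comp fun u v e => congrArg M9.v e
  have hA : (ι.comp j).range = A := by
    refine huniq _ ?_ inferInstance ?_
    · rintro _ ⟨v, rfl⟩
      exact (e _).2
    · rw [← Nat.card_congr (MonoidHom.ofInjective hj).toEquiv]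
      simp
  have hact : ∀ x : M9, Act (fun v => ι ⟨v, 1⟩) (ι x) x.d := fun x v => by
    rw [mul_inv_eq_iff_eq_mul, ← map_mul, ← map_mul]
    simp [M9.mul_def, add_comm]
  refine Mod.normal (S := S) (w := fun v => ι ⟨v, 1⟩) ⟨fun u v => (ι.comp j).map_mul (.ofAdd u) (.ofAdd v),
    fun v h => congrArg M9.v (hι (h.trans (map_one ι).symm)), fun x => by rw [← hA]; rfl, hS, ?_, fun x hx => ?_,
    fun d => ⟨ι ⟨0, d⟩, (e _).2, hact _⟩, huniq⟩
  · rw [← hA]
    rintro _ ⟨v, rfl⟩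
    exact (e _).2
  · obtain ⟨y, hy⟩ := e.surjective ⟨x, hx⟩
    obtain rfl : ι y = x := congrArg Subtype.val hy
    exact ⟨_, hact y, fun h => hA ▸ ⟨.ofAdd y.v, congrArg ι (M9.ext rfl h.symm)⟩⟩

end Cfsg.Lib.FT.VV
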