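import Mathlib.GroupTheory.SpecificGroups.Alternating
import Mathlib.Data.ZMod.Basic
import Mathlib.Tactic.Ring
import Mathlib.Tactic.DeriveFintype
import Mathlib.Algebra.Group.MinimalAxioms

/-!
# The module `V ⊕ V*` for the dihedral group of order 8: combinatorial model
-/

set_option autoImplicit false

namespace Cfsg.Lib.FT.VV
open Equiv

abbrev V6 := Fin 6 → ZMod 2

/-- unitriangular `3 × 3` matrices over the field with two elements -/
structure T3 where
  a : ZMod 2
  b : ZMod 2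
  c : ZMod 2
  deriving DecidableEq, Fintype

instance : Mul T3 := ⟨fun d e => ⟨d.a + e.a, d.b + e.b, d.c + e.c + d.a * e.b⟩⟩
instance : One T3 := ⟨⟨0, 0, 0⟩⟩
instance : Inv T3 := ⟨fun d => ⟨d.a, d.b, d.c + d.a * d.b⟩⟩
instance : Group T3 := Group.ofLeftAxioms (by decide +kernel) (by decide +kernel) (by decide +kernel)

def act (d : T3) (v : V6) : V6 :=
  ![v 0 + d.a * v 1 + d.c * v 2, v 1 + d.b * v 2, v 2, v 3, d.a * v 3 + v 4,
    (d.c + d.a * d.b) * v 3 + d.b * v 4 + v 5]

instance : MulAction T3 V6 where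
  smul := act
  one_smul := by show ∀ v, act 1 v = v; decide +kernel
  mul_smul := by
    rintro ⟨a, b, c⟩ ⟨a', b', c'⟩ v
    show act ⟨a + a', b + b', c + c' + a * b'⟩ v = act ⟨a, b, c⟩ (act ⟨a', b', c'⟩ v)
    have h : ∀ a b c a' b' c' x y w : ZMod 2, (c + c' + a * b' + (a + a') * (b + b')) * x + (b + b') * y + w =
        (c + a * b) * x + b * (a' * x + y) + ((c' + a' * b') * x + b' * y + w) := by decide +kernel
    funext i
    fin_cases i
    all_goals simp [act]
    all_goals first | exact h _ _ _ _ _ _ _ _ _ | ring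

theorem smul_add' : ∀ (d : T3) (u v : V6), d • (u + v) = d • u + d • v := by
  intro d u v
  show act d (u + v) = act d u + act d v
  funext i
  fin_cases i <;> simp [act] <;> ring

def ta : T3 := ⟨1, 0, 0⟩
def tb : T3 := ⟨0, 1, 0⟩
def tz : T3 := ⟨0, 0, 1⟩
def e6 (i : Fin 6) : V6 := fun j => if j = i then 1 else 0

/-- non-central involution -/
def nc (d : T3) : Prop := d * d = 1 ∧ d ≠ 1 ∧ d ≠ tz
instance (d : T3) : Decidable (nc d) := by unfold nc; infer_instance

theorem add_self (v : V6) : v + v = 0 := by revert v; decide +kernel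
theorem card_T3 : Fintype.card T3 = 8 := by decide +kernel
theorem d_faith : ∀ d : T3, (∀ v : V6, d • v = v) → d = 1 := by decide +kernel
theorem d_z : ∀ d : T3, d * tz = tz * d := by decide +kernel
theorem d_cen : ∀ d : T3, d * ta = ta * d → d * tb = tb * d → d = 1 ∨ d = tz := by decide +kernel
theorem d_fix : ∀ d : T3, d * d = 1 → d ≠ 1 → Fintype.card {v : V6 // d • v = v} = 16 := by decide +kernel
theorem d_fix2 : ∀ d e : T3, d * d = 1 → d ≠ 1 → e ≠ 1 → d ≠ e →
    Fintype.card {v : V6 // d • v = v ∧ e • v = v} < 8 ∨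
    (Fintype.card {v : V6 // d • v = v ∧ e • v = v} = 8 ∧ ∀ v : V6, e • (v + d • v) = v + d • v) := by
  decide +kernel
theorem d_two : ∀ d : T3, d * d = 1 → d ≠ 1 → ∃ u v : V6, u + d • u ≠ 0 ∧ v + d • v ≠ 0 ∧
    u + d • u ≠ v + d • v := by decide +kernel
theorem d_four : ∀ d e f : T3, d * d = 1 → e * e = 1 → f * f = 1 → d ≠ 1 → e ≠ 1 → d ≠ e → d * e = e * d →
    f * d = d * f → f * e = e * f → f = 1 ∨ f = d ∨ f = e ∨ f = d * e := by decide +kernel

/-- the chain conditions -/
theorem d_Kz : ∀ d : T3, (∀ v : V6, tz • (d • v + v) = d • v + v) ∧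
    ∀ v : V6, tz • v = v → ∃ u : V6, d • v + v = u + tz • u := by decide +kernel
theorem d_Kn : ∀ d : T3, nc d → (∀ v : V6, d • (tz • v + v) = tz • v + v) ∧
    ∀ v : V6, d • v = v → ∃ u : V6, tz • v + v = u + d • u := by decide +kernel

/-- the endomorphism with prescribed images of the generators -/
def sg (p q d : T3) : T3 := p ^ d.a.val * q ^ d.b.val * tz ^ (d.c + d.a * d.b).val
theorem d_gen : ∀ d : T3, d = ta ^ d.a.val * tb ^ d.b.val * tz ^ (d.c + d.a * d.b).val := by decide +kernel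
theorem d_aut : ∀ p q : T3, p * p = 1 → q * q = 1 → p * q * (p * q) = tz →
    sg p q (sg p q (sg p q (sg p q ta))) = ta ∧ sg p q (sg p q (sg p q (sg p q tb))) = tb := by decide +kernel
theorem d_ab : ta * tb * (ta * tb) = tz := by decide +kernel
theorem d_e0 : ∀ u : V6, tb • u = u → tb • (u + ta • u) = u + ta • u → u + ta • u = 0 ∨ u + ta • u = e6 0 := by
  decide +kernel
theorem d_e5 : ∀ u : V6, ta • u = u → ta • (u + tb • u) = u + tb • u → u + tb • u = 0 ∨ u + tb • u = e6 5 := by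
  decide +kernel
/-- the span of `e₁`, `f₃` -/
def w0 (v : V6) : Prop := v = 0 ∨ v = e6 0 ∨ v = e6 5 ∨ v = e6 0 + e6 5
instance (v : V6) : Decidable (w0 v) := by unfold w0; infer_instance
theorem d_e1 : ∀ u : V6, u + ta • u = e6 0 → tb • u = u → w0 (u + e6 1) := by decide +kernel
theorem d_e4 : ∀ u : V6, u + tb • u = e6 5 → ta • u = u → w0 (u + e6 4) := by decide +kernel
theorem d_e2 : ∀ u : V6, u + tb • u = e6 1 → ta • u = u → w0 (u + e6 2) := by decide +kernel
theorem d_e3 : ∀ u : V6, u + ta • u = e6 4 → tb • u = u → w0 (u + e6 3) := by decide +kernel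
theorem d_cent : ∀ d e : T3, nc d → e * d = d * e → e = 1 ∨ e = tz ∨ ∃ f : T3, f * d * f⁻¹ = e := by
  decide +kernel
theorem d_cls : ∀ d e f : T3, nc d → nc e → f * f = 1 → f ≠ 1 → (∀ g : T3, g * d * g⁻¹ ≠ e) →
    (∀ g : T3, g * d * g⁻¹ ≠ f) → f = tz ∨ f = e ∨ f = e * tz := by decide +kernel
theorem d_swap : ∀ d : T3, nc d → ∃ f : T3, f * d * f⁻¹ = d * tz := by decide +kernel
/-- the image of `1 + d` -/
def im (d : T3) (w : V6) : Prop := ∃ u : V6, w = u + d • u
instance (d : T3) (w : V6) : Decidable (im d w) := by unfold im; infer_instance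
def cv (d : T3) : V6 := if d.a = 1 then e6 0 else e6 5
theorem d_cv : ∀ d : T3, nc d → cv d ≠ 0 ∧ im tz (cv d) ∧ im d (cv d) ∧ im (d * tz) (cv d) ∧
    ∀ w : V6, im tz w → im d w → w = 0 ∨ w = cv d := by decide +kernel
theorem d_W : ∀ d : T3, nc d → ∀ w : V6, tz • w = w → d • w = w → im tz w ∨ im d w ∨ im (d * tz) w := by
  decide +kernel
theorem d_P : ∀ d : T3, nc d → ∀ u v : V6, ¬ (tz • u = u ∨ d • u = u ∨ (d * tz) • u = u) →
    ¬ (tz • v = v ∨ d • v = v ∨ (d * tz) • v = v) →
    tz • (u + v) = u + v ∨ d • (u + v) = u + v ∨ (d * tz) • (u + v) = u + v := by decide +kernel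
theorem d_imz : Fintype.card {w : V6 // im tz w} = 4 := by decide +kernel

end Cfsg.Lib.FT.VV
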