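import Mathlib.GroupTheory.SpecificGroups.Alternating

/-!
# Elements of order 3 of the symmetric group of degree 6 normalize four-groups
-/

set_option autoImplicit false

namespace Cfsg.Lib.FT.VV
open Equiv

theorem d_a6 : ∀ y : Perm (Fin 6), y ^ 9 = 1 → y ^ 3 = 1 ∧ (y ≠ 1 → ∃ t : Perm (Fin 6), t * t = 1 ∧
    y * t * y⁻¹ ≠ t ∧ y * (y * t * y⁻¹) * y⁻¹ = y * t * y⁻¹ * t ∧ Perm.sign t = 1) := by decide +kernel

end Cfsg.Lib.FT.VV
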