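import Cfsg.Agent.Lib.SC2.Ind
import Cfsg.Agent.Lib.SC2.Dec

/-!
# Linear groups on `V ⊕ V*` with the dihedral group as Sylow 2-subgroup: centralizers of involutions
-/

set_option autoImplicit false

namespace Cfsg.Lib.FT.VV
open Subgroup Cfsg.Lib Cfsg.Lib.FT Equiv

abbrev P6 := Perm V6

def dp : T3 →* P6 := MulAction.toPermHom T3 V6

theorem dp_apply (d : T3) (v : V6) : dp d v = d • v := rfl
theorem dp_inj : Function.Injective dp := (injective_iff_map_eq_one dp).2 fun d h =>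
  d_faith d fun v => by rw [← dp_apply, h]; rfl
theorem card_D : Nat.card dp.range = 8 := by
  rw [← Nat.card_congr (MonoidHom.ofInjective dp_inj).toEquiv, Nat.card_eq_fintype_card, card_T3]

/-- the additive permutations -/
def AddP : Subgroup P6 where
  carrier := {g | ∀ u v, g (u + v) = g u + g v}
  mul_mem' := fun {g h} hg hh u v => by rw [Perm.mul_apply, hh, hg]; rfl
  one_mem' := fun _ _ => rfl
  inv_mem' := fun {g} hg u v => g.injective (by rw [hg]; simp)

theorem dp_add (d : T3) : dp d ∈ AddP := smul_add' d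
theorem map_zero' {g : P6} (hg : g ∈ AddP) : g 0 = 0 := by
  have := hg 0 0
  rwa [add_zero, left_eq_add] at this

theorem add_eq_iff {u v w : V6} : u + v = w ↔ u = v + w := by
  constructor
  · rintro rfl; rw [add_left_comm, add_self, add_zero]
  · rintro rfl; rw [add_right_comm, add_self, zero_add]

theorem fix_step {y : P6} (hy : y ∈ AddP) (ho : Odd (orderOf y)) {v w : V6} (h1 : y v + v = w) (h2 : y w = w) :
    y v = v := by
  rw [add_eq_iff] at h1
  have h3 : (y ^ 2) v = v := by rw [sq, Perm.mul_apply, h1, hy, h1, h2, add_assoc, add_self, add_zero]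
  obtain ⟨k, hk⟩ := ho
  have h4 : (y ^ (2 * k)) v = v := by rw [pow_mul]; exact Perm.pow_apply_eq_self_of_apply_eq_self h3 k
  have h5 : y * y ^ (2 * k) = 1 := by rw [← pow_succ', ← hk, pow_orderOf_eq_one]
  conv_lhs => rw [← h4]
  rw [← Perm.mul_apply, h5]; rfl

theorem eq_one_of_basis {y : P6} (hy : y ∈ AddP) (h : ∀ i, y (e6 i) = e6 i) : y = 1 := by
  have h1 : ∀ v : V6, v = v 0 • e6 0 + (v 1 • e6 1 + (v 2 • e6 2 + (v 3 • e6 3 + (v 4 • e6 4 + v 5 • e6 5)))) := by
    decide +kernel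
  have h2 : ∀ (c : ZMod 2) i, y (c • e6 i) = c • e6 i := fun c i => by
    rcases (by revert c; decide : c = 0 ∨ c = 1) with rfl | rfl
    · simpa using map_zero' hy
    · simpa using h i
  ext1 v
  rw [h1 v, hy, hy, hy, hy, hy, h2, h2, h2, h2, h2, h2]; rfl

theorem odd_cent {y : P6} (hy : y ∈ AddP) (ho : Odd (orderOf y)) (ha : y * dp ta = dp ta * y)
    (hb : y * dp tb = dp tb * y) : y = 1 := by
  have ha' : ∀ v, ta • y v = y (ta • v) := fun v => (congrArg (· v) ha).symm
  have hb' : ∀ v, tb • y v = y (tb • v) := fun v => (congrArg (· v) hb).symm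
  have h0 : ∀ v, v ≠ 0 → y v ≠ 0 := fun v hv e => hv (y.injective (e.trans (map_zero' hy).symm))
  have e0 : y (e6 0) = e6 0 := by
    have h1 : y (e6 1) + ta • y (e6 1) = y (e6 0) := by rw [ha', ← hy]; congr 1; decide +kernel
    have := d_e0 (y (e6 1)) (by rw [hb']; congr 1; decide +kernel) (by rw [h1, hb']; congr 1; decide +kernel)
    rw [h1] at this
    exact this.resolve_left (h0 _ (by decide +kernel))
  have e5 : y (e6 5) = e6 5 := by
    have h1 : y (e6 4) + tb • y (e6 4) = y (e6 5) := by rw [hb', ← hy]; congr 1; decide +kernel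
    have := d_e5 (y (e6 4)) (by rw [ha']; congr 1; decide +kernel) (by rw [h1, ha']; congr 1; decide +kernel)
    rw [h1] at this
    exact this.resolve_left (h0 _ (by decide +kernel))
  have hw : ∀ v, w0 (y v + v) → y v = v := fun v hv => by
    refine fix_step hy ho rfl ?_
    rcases hv with h | h | h | h <;> rw [h]
    · exact map_zero' hy
    · exact e0
    · exact e5
    · rw [hy, e0, e5]
  have e1 : y (e6 1) = e6 1 := hw _ (d_e1 _ (by rw [ha', ← hy, ← e0]; congr 1; decide +kernel)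
    (by rw [hb']; congr 1; decide +kernel))
  have e4 : y (e6 4) = e6 4 := hw _ (d_e4 _ (by rw [hb', ← hy, ← e5]; congr 1; decide +kernel)
    (by rw [ha']; congr 1; decide +kernel))
  have e2 : y (e6 2) = e6 2 := hw _ (d_e2 _ (by rw [hb', ← hy, ← e1]; congr 1; decide +kernel)
    (by rw [ha']; congr 1; decide +kernel))
  have e3 : y (e6 3) = e6 3 := hw _ (d_e3 _ (by rw [ha', ← hy, ← e4]; congr 1; decide +kernel)
    (by rw [hb']; congr 1; decide +kernel))
  refine eq_one_of_basis hy fun i => ?_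
  fin_cases i <;> assumption

/-- acts trivially on the sections of the chain `[V, t] ≤ C(t) ≤ V` -/
structure KP (t g : P6) : Prop where
  add : g ∈ AddP
  comm : g * t = t * g
  top : ∀ v, t (g v + v) = g v + v
  mid : ∀ v, t v = v → ∃ u, g v + v = u + t u

theorem KP.app {t g : P6} (h : KP t g) (v : V6) : g (t v) = t (g v) := congrArg (· v) h.comm

theorem KP.mul {t g h : P6} (ht : t ∈ AddP) (hg : KP t g) (hh : KP t h) : KP t (g * h) := by
  have e : ∀ v, (g * h) v + v = g (h v + v) + (g v + v) := fun v => by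
    rw [hg.add, Perm.mul_apply, add_assoc, ← add_assoc (g v), add_self, zero_add]
  refine ⟨AddP.mul_mem hg.add hh.add, by rw [mul_assoc, hh.comm, ← mul_assoc, hg.comm, mul_assoc],
    fun v => by rw [e, ht, hg.top, ← hg.app, hh.top], fun v hv => ?_⟩
  obtain ⟨u, hu⟩ := hg.mid v hv
  obtain ⟨u', hu'⟩ := hh.mid v hv
  exact ⟨g u' + u, by rw [e, hu, hu', hg.add, hg.app, ht]; abel⟩

theorem KP.pow_four {t g : P6} (ht : t ∈ AddP) (hg : KP t g) : g * g * (g * g) = 1 := by
  ext1 v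
  obtain ⟨u, hu⟩ := hg.mid _ (hg.top v)
  have h1 : g (u + t u) = u + t u := by
    have := hg.top u
    rw [ht, add_eq_iff] at this
    rw [hg.add, hg.app, this, add_left_comm, ← add_assoc (g u), add_self, zero_add, add_comm]
  have h2 : g (g v) = v + (u + t u) := by
    rw [← hu, hg.add, add_assoc, ← add_assoc (g v), add_self, zero_add, add_left_comm, add_self, add_zero]
  simp only [Perm.mul_apply, Perm.one_apply]
  rw [h2, hg.add, hg.add, h2, h1, h1, add_assoc, add_self, add_zero]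

def Kt (t : P6) (ht : t ∈ AddP) : Subgroup P6 where
  carrier := {g | KP t g}
  mul_mem' := KP.mul ht
  one_mem' := ⟨one_mem _, by simp, fun v => by simp [add_self, map_zero' ht],
    fun v _ => ⟨0, by simp [add_self, map_zero' ht]⟩⟩
  inv_mem' := fun {g} hg => by
    have : g⁻¹ = g * (g * g) := inv_eq_of_mul_eq_one_right (by rw [← mul_assoc, KP.pow_four ht hg])
    rw [this]
    exact KP.mul ht hg (KP.mul ht hg hg)

theorem isPGroup_Kt {t : P6} (ht : t ∈ AddP) : IsPGroup 2 (Kt t ht) := fun g =>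
  ⟨2, Subtype.ext (by simpa [pow_succ, mul_assoc] using KP.pow_four ht g.2)⟩

theorem KP.conj {t g c : P6} (hg : KP t g) (hc : c ∈ AddP) (hct : c * t = t * c) : KP t (c * g * c⁻¹) := by
  have h1 : ∀ v, c (t v) = t (c v) := fun v => congrArg (· v) hct
  have e : ∀ v, (c * g * c⁻¹) v + v = c (g (c⁻¹ v) + c⁻¹ v) := fun v => by rw [hc]; simp
  refine ⟨AddP.mul_mem (AddP.mul_mem hc hg.add) (AddP.inv_mem hc), ?_, fun v => by rw [e, ← h1, hg.top],
    fun v hv => ?_⟩
  · calc c * g * c⁻¹ * t = c * g * c⁻¹ * (t * c) * c⁻¹ := by group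
      _ = c * (g * t) * c⁻¹ := by rw [← hct]; group
      _ = _ := by rw [hg.comm, ← mul_assoc, hct]; group
  · obtain ⟨u, hu⟩ := hg.mid (c⁻¹ v) (c.injective (by rw [h1]; simpa using hv))
    exact ⟨c u, by rw [e, hu, hc, h1]⟩

/-- the hypothesis on the linear group -/
structure Lin (H : Subgroup P6) : Prop where
  add : H ≤ AddP
  syl : IsSylowIn 2 dp.range H

namespace Lin
variable {H : Subgroup P6} (h : Lin H)
include h

theorem mem (d : T3) : dp d ∈ H := h.syl.le ⟨d, rfl⟩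

theorem cent_z {g : P6} (hg : g ∈ H) (hz : g * dp tz = dp tz * g) : g ∈ dp.range := by
  have h1 : Kt _ (dp_add tz) ⊓ H = dp.range := by
    refine h.syl.maximal _ ((isPGroup_Kt _).to_le inf_le_left) inf_le_right (le_inf ?_ h.syl.le)
    rintro _ ⟨d, rfl⟩
    exact ⟨dp_add d, by rw [← map_mul, ← map_mul, d_z], (d_Kz d).1, (d_Kz d).2⟩
  have h2 : ∀ y ∈ H ⊓ C1[dp tz], ∀ d, ∃ e, dp e = y * dp d * y⁻¹ := fun y hy d => by
    have h3 : dp d ∈ Kt _ (dp_add tz) ⊓ H := h1 ▸ ⟨d, rfl⟩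
    exact h1.le ⟨KP.conj h3.1 (h.add hy.1) (mem_centralizer_singleton_iff.1 hy.2),
      H.mul_mem (H.mul_mem hy.1 h3.2) (H.inv_mem hy.1)⟩
  have h3 : IsPGroup 2 ↥(H ⊓ C1[dp tz]) := pg_isPGroup_of_forall_prime_order fun y hy hp => by
    by_contra hne
    have ho := hp.odd_of_ne_two hne
    obtain ⟨p, hp'⟩ := h2 y hy ta
    obtain ⟨q, hq⟩ := h2 y hy tb
    have hz : y * dp tz * y⁻¹ = dp tz := by rw [mem_centralizer_singleton_iff.1 hy.2]; group
    have h4 : ∀ d, y * dp d * y⁻¹ = dp (sg p q d) := fun d => by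
      conv_lhs => rw [d_gen d]
      simp only [sg, map_mul, map_pow, hp', hq, conj_pow]
      conv_rhs => rw [← hz, conj_pow]
      group
    have h5 : ∀ d, y ^ 4 * dp d * (y ^ 4)⁻¹ = dp (sg p q (sg p q (sg p q (sg p q d)))) := fun d => by
      rw [← h4, ← h4, ← h4, ← h4]; simp only [pow_succ, pow_zero, one_mul, mul_inv_rev, mul_assoc]
    have hc : ∀ d e, y * dp d * y⁻¹ * (y * dp e * y⁻¹) = y * dp (d * e) * y⁻¹ := fun d e => by
      rw [map_mul]; group
    have h6 := d_aut p q (dp_inj (by rw [map_mul, hp', hc, show ta * ta = 1 by decide, map_one]; group))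
      (dp_inj (by rw [map_mul, hq, hc, show tb * tb = 1 by decide, map_one]; group))
      (dp_inj (by rw [map_mul, map_mul, hp', hq, hc, hc, d_ab, hz]))
    have h7 := odd_cent (AddP.pow_mem (h.add hy.1) 4) (ho.of_dvd_nat (orderOf_pow_dvd 4))
      (by rw [← mul_inv_eq_iff_eq_mul, h5, h6.1]) (by rw [← mul_inv_eq_iff_eq_mul, h5, h6.2])
    exact hne ((Nat.prime_dvd_prime_iff_eq hp Nat.prime_two).1
      (hp.dvd_of_dvd_pow (n := 2) (orderOf_dvd_of_pow_eq_one h7)))
  refine (h.syl.maximal _ h3 inf_le_left (le_inf h.syl.le ?_)).le ⟨hg, mem_centralizer_singleton_iff.2 hz⟩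
  rintro _ ⟨d, rfl⟩
  rw [mem_centralizer_singleton_iff, ← map_mul, ← map_mul, d_z]

theorem cent_nc {d : T3} (hd : nc d) (hn : ∀ k ∈ H, k * dp d * k⁻¹ ≠ dp tz) {g : P6} (hg : g ∈ H)
    (hc : g * dp d = dp d * g) : g ∈ dp.range := by
  refine h.cent_z hg ?_
  obtain ⟨k, hk, hle⟩ := h.syl.exists_conj_le ((isPGroup_Kt (dp_add d)).to_le inf_le_left)
    (inf_le_right : _ ⊓ H ≤ H)
  have hz : KP (dp d) (dp tz) := ⟨dp_add _, by rw [← map_mul, ← map_mul, d_z], (d_Kn d hd).1, (d_Kn d hd).2⟩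
  have hdd : KP (dp d) (dp d) := by
    have h1 : ∀ v, dp d (dp d v) = v := fun v => by rw [← Perm.mul_apply, ← map_mul, hd.1, map_one]; rfl
    exact ⟨dp_add _, rfl, fun v => by rw [dp_add, h1, add_comm], fun v hv => ⟨0, by
      rw [hv, add_self, map_zero' (dp_add d), add_zero]⟩⟩
  obtain ⟨d', hd'⟩ := hle (conj_mem_conj (⟨hdd, h.mem d⟩ : dp d ∈ Kt _ (dp_add d) ⊓ H) k)
  have hnc : nc d' := ⟨dp_inj (by rw [map_mul, hd', map_one, ← sq, conj_pow, ← map_pow, sq, hd.1, map_one]; group),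
    fun e => hd.2.1 (dp_inj (by simpa [e] using hd'.symm)), fun e => hn k hk (by rw [← hd', e])⟩
  have key : ∀ c ∈ H, c * dp d = dp d * c → k * (c * dp tz * c⁻¹) * k⁻¹ = dp tz := fun c hc hcd => by
    have h1 := hz.conj (h.add hc) hcd
    obtain ⟨e, he⟩ := hle (conj_mem_conj (⟨h1, H.mul_mem (H.mul_mem hc (h.mem tz)) (H.inv_mem hc)⟩ :
      _ ∈ Kt _ (dp_add d) ⊓ H) k)
    rcases d_cent d' e hnc (dp_inj (by
      rw [map_mul, map_mul, he, hd']
      calc _ = k * (c * dp tz * c⁻¹ * dp d) * k⁻¹ := by group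
        _ = _ := by rw [h1.comm]; group)) with e1 | e1 | ⟨f, e1⟩
    · exact absurd (dp_inj (by simpa [e1] using he.symm) : tz = 1) (by decide)
    · rw [← he, e1]
    · refine absurd ?_ (hn (c⁻¹ * k⁻¹ * dp f * k) (H.mul_mem (H.mul_mem (H.mul_mem (H.inv_mem hc) (H.inv_mem hk))
        (h.mem f)) hk))
      rw [← e1, map_mul, map_mul, map_inv, hd'] at he
      calc _ = c⁻¹ * k⁻¹ * (dp f * (k * dp d * k⁻¹) * (dp f)⁻¹) * k * c := by group
        _ = _ := by rw [he]; group
  have h1 := (key g hg hc).trans (key 1 (one_mem _) (by simp)).symm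
  simpa [mul_inv_eq_iff_eq_mul] using h1

end Lin
end Cfsg.Lib.FT.VV
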