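import Cfsg.Agent.Lib.SC2.Lin
import Cfsg.Agent.Lib.SC2.DecA6
import Cfsg.Agent.Lib.BSW.D8
import Cfsg.Agent.Lib.Small.Order168

/-!
# Linear groups on `V ⊕ V*` with the dihedral group as Sylow 2-subgroup: fixed points of odd elements
-/

set_option autoImplicit false

namespace Cfsg.Lib.FT.VV
open Subgroup Cfsg.Lib Cfsg.Lib.FT Equiv

/-- the number of fixed points -/
noncomputable def nf (y : P6) : ℕ := (MulAction.fixedBy V6 y).ncard

theorem nf_modEq {y : P6} {p : ℕ} (hp : p.Prime) (hy : y ^ p = 1) : 64 ≡ nf y [MOD p] := by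
  have := Fact.mk hp
  have h2 := (elemAb_isPGroup (elemAb_zpowers hy)).card_modEq_card_fixedPoints V6
  have h3 : MulAction.fixedPoints (zpowers y) V6 = MulAction.fixedBy V6 y := by
    ext x
    refine ⟨fun hx => hx ⟨y, mem_zpowers y⟩, fun hx g => ?_⟩
    exact (zpowers_le (H := MulAction.stabilizer P6 x)).2 hx g.2
  rwa [h3, Nat.card_coe_set_eq, show Nat.card V6 = 64 by simp] at h2

theorem nf_conj (k y : P6) : nf (k * y * k⁻¹) = nf y := by
  rw [nf, ← MulAction.smul_fixedBy, Set.ncard_smul_set, nf]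

theorem ncard_four {α : Type*} (a b c d : α) : ({a, b, c, d} : Set α).ncard ≤ 4 := by
  have h1 := Set.ncard_insert_le a {b, c, d}
  have h2 := Set.ncard_insert_le b {c, d}
  have h3 := Set.ncard_insert_le c {d}
  rw [Set.ncard_singleton] at h3
  omega

theorem rot0 {y : P6} (hy : y ∈ AddP) (h3 : y ^ 3 = 1) {d : T3} (hd : nc d) (h1 : y * dp tz * y⁻¹ = dp d)
    (h2 : y * dp d * y⁻¹ = dp (d * tz)) :
    nf y = 4 ∧ ∀ w, y w = w → tz • w = w → w = 0 ∨ w = cv d := by
  have h4 : y * dp (d * tz) * y⁻¹ = dp tz := by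
    calc _ = y * dp d * y⁻¹ * (y * dp tz * y⁻¹) := by rw [map_mul]; group
      _ = _ := by rw [h1, h2, ← map_mul, mul_assoc, ← d_z, ← mul_assoc, hd.1, one_mul]
  have hap : ∀ {e f : T3}, y * dp e * y⁻¹ = dp f → ∀ v, f • y v = y (e • v) := fun e v => by
    rw [← dp_apply, ← e]; simp [dp_apply]
  have him : ∀ {e f : T3}, y * dp e * y⁻¹ = dp f → ∀ w, im e w → im f (y w) := by
    rintro e f h _ ⟨u, rfl⟩
    exact ⟨y u, by rw [hy, hap h]⟩
  obtain ⟨c0, c1, c2, c3, c4⟩ := d_cv d hd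
  have hc : y (cv d) = cv d := (c4 _ (him h4 _ c3) (him h1 _ c1)).resolve_left
    fun e => c0 (y.injective (e.trans (map_zero' hy).symm))
  have hP : ∀ w, y w = w → (tz • w = w ∨ d • w = w ∨ (d * tz) • w = w) → w = 0 ∨ w = cv d := fun w hw h => by
    have f1 : tz • w = w → d • w = w := fun e => by rw [← hw, hap h1, e]
    have f2 : d • w = w → (d * tz) • w = w := fun e => by rw [← hw, hap h2, e]
    have f3 : (d * tz) • w = w → tz • w = w := fun e => by rw [← hw, hap h4, e]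
    have g1 : im tz w → im d w := fun e => hw ▸ him h1 w e
    have g2 : im d w → im (d * tz) w := fun e => hw ▸ him h2 w e
    have g3 : im (d * tz) w → im tz w := fun e => hw ▸ him h4 w e
    have k1 : tz • w = w := h.elim id fun h => h.elim (f3 ∘ f2) f3
    have k2 : im tz w := (d_W d hd w k1 (f1 k1)).elim id fun h => h.elim (g3 ∘ g2) g3
    exact c4 w k2 (g1 k2)
  refine ⟨?_, fun w hw h => hP w hw (Or.inl h)⟩
  have hle : nf y ≤ 4 := by
    by_cases h : ∃ v, y v = v ∧ ¬ (tz • v = v ∨ d • v = v ∨ (d * tz) • v = v)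
    · obtain ⟨v, hv, hv'⟩ := h
      refine (Set.ncard_le_ncard (t := {0, cv d, v, v + cv d}) fun w hw => ?_).trans (ncard_four _ _ _ _)
      by_cases hw' : tz • w = w ∨ d • w = w ∨ (d * tz) • w = w
      · exact (hP w hw hw').imp_right Or.inl
      · rcases hP (w + v) (by rw [hy, hv, show y w = w from hw]) (d_P d hd w v hw' hv') with e | e
        · exact Or.inr (Or.inr (Or.inl ((add_eq_iff.1 e).trans (add_zero v))))
        · exact Or.inr (Or.inr (Or.inr (add_eq_iff.1 e)))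
    · refine (Set.ncard_le_ncard (t := {0, cv d, 0, 0}) fun w hw => (hP w hw ?_).imp_right Or.inl).trans
        (ncard_four _ _ _ _)
      by_contra hc
      exact h ⟨w, hw, hc⟩
  have hge : 2 ≤ nf y := by
    rw [← Set.ncard_pair c0]
    refine Set.ncard_le_ncard ?_
    rintro _ (rfl | rfl)
    · exact hc
    · exact map_zero' hy
  have := nf_modEq Nat.prime_three h3
  unfold Nat.ModEq at this
  omega

namespace Lin
variable {H : Subgroup P6} (h : Lin H)
include h

theorem rot {y t : P6} (hy : y ∈ H) (h3 : y ^ 3 = 1) (ht : t ∈ H) (ht2 : t * t = 1) (h1 : y * t * y⁻¹ ≠ t)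
    (h2 : y * (y * t * y⁻¹) * y⁻¹ = y * t * y⁻¹ * t) : nf y = 4 := by
  set t' := y * t * y⁻¹ with ht'
  have ht'2 : t' * t' = 1 := by rw [ht', ← sq, conj_pow, sq, ht2]; group
  have hc : t * t' = t' * t := by
    have : t' * t * (t' * t) = 1 := by rw [← h2, ← sq, conj_pow, sq, ht'2]; group
    calc t * t' = t' * (t' * t * (t' * t)) * t := by
          simp only [← mul_assoc]; rw [ht'2, one_mul, mul_assoc _ t t, ht2, mul_one]
      _ = _ := by rw [this, mul_one]
  have h4 : y * (t' * t) * y⁻¹ = t := by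
    rw [← h2, ht']
    calc _ = y ^ 3 * t * (y ^ 3)⁻¹ := by simp only [pow_succ, pow_zero, one_mul, mul_inv_rev, mul_assoc]
      _ = t := by rw [h3]; group
  have ht'H : t' ∈ H := H.mul_mem (H.mul_mem hy ht) (H.inv_mem hy)
  have hE : IsElementaryAbelian 2 (zpowers t ⊔ zpowers t') :=
    elemAb_sup (elemAb_zpowers ((sq t).trans ht2)) (elemAb_zpowers ((sq t').trans ht'2))
      (zpowers_le.2 (by rw [centralizer_zpowers, mem_centralizer_singleton_iff, hc]))
  obtain ⟨k, hk, hle⟩ := h.syl.exists_conj_le (elemAb_isPGroup hE) (sup_le (zpowers_le.2 ht) (zpowers_le.2 ht'H))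
  obtain ⟨d, hd⟩ := hle (conj_mem_conj (mem_sup_left (mem_zpowers t)) k)
  obtain ⟨e, he⟩ := hle (conj_mem_conj (mem_sup_right (mem_zpowers t')) k)
  have hy' : k * y * k⁻¹ ∈ AddP := h.add (H.mul_mem (H.mul_mem hk hy) (H.inv_mem hk))
  have h3' : (k * y * k⁻¹) ^ 3 = 1 := by rw [conj_pow, h3]; group
  have hcj : ∀ s, k * y * k⁻¹ * (k * s * k⁻¹) * (k * y * k⁻¹)⁻¹ = k * (y * s * y⁻¹) * k⁻¹ := fun s => by group
  have hed : dp (e * d) = k * (t' * t) * k⁻¹ := by rw [map_mul, hd, he]; group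
  have r1 : k * y * k⁻¹ * dp d * (k * y * k⁻¹)⁻¹ = dp e := by rw [hd, he, hcj]
  have r2 : k * y * k⁻¹ * dp e * (k * y * k⁻¹)⁻¹ = dp (e * d) := by rw [hed, he, hcj, h2]
  have r3 : k * y * k⁻¹ * dp (e * d) * (k * y * k⁻¹)⁻¹ = dp d := by rw [hed, hd, hcj, h4]
  have key : ∀ d e : T3, d * d = 1 → e * e = 1 → d ≠ e → d ≠ 1 → e ≠ 1 → d * e = e * d →
      (d = tz ∧ nc e) ∨ (e = tz ∧ nc (e * d) ∧ d = e * d * tz) ∨ (e * d = tz ∧ nc d ∧ e = d * tz) := by
    decide +kernel
  have ht1 : t ≠ 1 := fun e => h1 (by simp [ht', e])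
  rw [← nf_conj k]
  rcases key d e (dp_inj (by rw [map_mul, hd, map_one, ← sq, conj_pow, sq, ht2]; group))
    (dp_inj (by rw [map_mul, he, map_one, ← sq, conj_pow, sq, ht'2]; group))
    (fun e1 => h1 (by simpa [e1, he] using hd)) (fun e1 => ht1 (by simpa [e1] using hd.symm))
    (fun e1 => ht1 (by simpa [e1, ht'] using he.symm))
    (dp_inj (by rw [hed, ← hc, map_mul, hd, he]; group)) with ⟨rfl, e1⟩ | ⟨rfl, e1, e2⟩ | ⟨e0, e1, e2⟩
  · exact (rot0 hy' h3' e1 r1 r2).1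
  · exact (rot0 hy' h3' e1 r2 (e2 ▸ r3)).1
  · exact (rot0 hy' h3' e1 (e0 ▸ r3) (e2 ▸ r1)).1

theorem card_eq : Nat.card H = C1[dp tz].relIndex H * 8 := by
  have : C1[dp tz] ⊓ H = dp.range := by
    refine le_antisymm (fun g hg => h.cent_z hg.2 (mem_centralizer_singleton_iff.1 hg.1)) (le_inf ?_ h.syl.le)
    rintro _ ⟨d, rfl⟩
    rw [mem_centralizer_singleton_iff, ← map_mul, ← map_mul, d_z]
  rw [← card_D, ← this, relIndex_mul_card_inf]

theorem two_class {d : T3} (hd : nc d) (hn : ∀ k ∈ H, k * dp d * k⁻¹ ≠ dp tz) {x : P6} (hx : x ∈ H)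
    (hp : (orderOf x).Prime) (h2 : orderOf x ≠ 2) : orderOf x = 3 ∧ nf x = 4 ∧ ¬ 9 ∣ Nat.card H := by
  have hz : ∀ k ∈ H, k * dp tz * k⁻¹ ∈ dp.range := fun k hk => by
    have hk' := H.mul_mem (H.mul_mem hk (h.mem tz)) (H.inv_mem hk)
    obtain ⟨⟨u, huH⟩, hu, hu1, c1, c2, -⟩ := exists_central_of_not_isConj (G := H) (a := ⟨dp d, h.mem d⟩)
      (b := ⟨_, hk'⟩) (Subtype.ext (by simp [sq, ← map_mul, hd.1]))
      (Subtype.ext (by simp [← map_pow, show tz ^ 2 = 1 by decide])) fun hc => by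
        obtain ⟨c, hc⟩ := isConj_iff.1 hc
        have hc' : (c : P6) * dp d * (c : P6)⁻¹ = k * dp tz * k⁻¹ := congrArg Subtype.val hc
        refine hn (k⁻¹ * c) (H.mul_mem (H.inv_mem hk) c.2) ?_
        calc _ = k⁻¹ * ((c : P6) * dp d * (c : P6)⁻¹) * k := by group
          _ = _ := by rw [hc']; group
    have c1' : u * dp d = dp d * u := (congrArg Subtype.val c1.eq).symm
    have c2' : k * dp tz * k⁻¹ * u = u * (k * dp tz * k⁻¹) := congrArg Subtype.val c2.eq
    obtain ⟨e, rfl⟩ := h.cent_nc hd hn huH c1'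
    rcases d_cent d e hd (dp_inj (by rw [map_mul, map_mul, c1'])) with rfl | rfl | ⟨f, rfl⟩
    · exact absurd (Subtype.ext (map_one dp)) hu1
    · exact h.cent_z hk' c2'
    · refine h.cent_nc (d := f * d * f⁻¹) ((by decide : ∀ d f : T3, nc d → nc (f * d * f⁻¹)) d f hd)
        (fun c hc e => hn (c * dp f) (H.mul_mem hc (h.mem f)) ?_) hk' c2'
      rw [← e, map_mul, map_mul, map_inv]; group
  have hxD : ∀ j, x ^ j ∈ dp.range → orderOf x ∣ j := fun j hj => by
    by_contra hc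
    have h1 := orderOf_dvd_natCard (⟨_, hj⟩ : dp.range)
    rw [card_D, orderOf_mk, ((hp.coprime_iff_not_dvd).2 hc).orderOf_pow] at h1
    exact h2 ((Nat.prime_dvd_prime_iff_eq hp Nat.prime_two).1 (hp.dvd_of_dvd_pow (n := 3) h1))
  obtain ⟨e, he⟩ := hz x hx
  have hnc : ∀ {e : T3} {k : P6}, k ∈ H → dp e = k * dp tz * k⁻¹ → e * e = 1 ∧ e ≠ 1 ∧ ∀ g : T3, g * d * g⁻¹ ≠ e :=
    fun {e k} hk he => ⟨dp_inj (by rw [map_mul, he, map_one, ← sq, conj_pow, ← map_pow,
      show tz ^ 2 = 1 by decide, map_one]; group),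
      fun e1 => absurd (dp_inj (by simpa [e1] using he.symm) : tz = 1) (by decide), fun g e1 =>
        hn (k⁻¹ * dp g) (H.mul_mem (H.inv_mem hk) (h.mem g)) (by
          rw [← e1, map_mul, map_mul, map_inv] at he
          calc _ = k⁻¹ * (dp g * dp d * (dp g)⁻¹) * k := by group
            _ = _ := by rw [he]; group)⟩
  have hez : e ≠ tz := fun e1 => hp.one_lt.ne' (Nat.dvd_one.1 (hxD 1 (by
    rw [pow_one]; exact h.cent_z hx (by rw [← mul_inv_eq_iff_eq_mul, ← he, e1]))))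
  have hne : nc e := ⟨(hnc hx he).1, (hnc hx he).2.1, hez⟩
  have hcls : ∀ k ∈ H, k * dp tz * k⁻¹ ∈ ({dp tz, dp e, dp (e * tz)} : Set P6) := fun k hk => by
    obtain ⟨f, hf⟩ := hz k hk
    rw [← hf]
    rcases d_cls d e f hd hne (hnc hk hf).1 (hnc hk hf).2.1 (hnc hx he).2.2 (hnc hk hf).2.2 with
      rfl | rfl | rfl <;> simp
  have hle : C1[dp tz].relIndex H ≤ 4 := by
    rw [← Bender.ncard_conj_eq_relIndex]
    refine (Set.ncard_le_ncard (t := {dp tz, dp e, dp (e * tz), 1}) ?_).trans (ncard_four _ _ _ _)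
    rintro _ ⟨k, hk, rfl⟩
    exact (hcls k hk).imp_right fun h => h.imp_right Or.inl
  have hcard := h.card_eq
  have h0 : C1[dp tz].relIndex H ≠ 0 := fun e => (Nat.card_pos (α := H)).ne' (by rw [hcard, e])
  have h3 : orderOf x = 3 := by
    have h1 := orderOf_dvd_natCard (⟨_, hx⟩ : H)
    rw [orderOf_mk, hcard] at h1
    have h4 := (hp.dvd_mul.1 h1).resolve_right fun h5 =>
      h2 ((Nat.prime_dvd_prime_iff_eq hp Nat.prime_two).1 (hp.dvd_of_dvd_pow (n := 3) h5))
    have h5 := (Nat.le_of_dvd (Nat.pos_of_ne_zero h0) h4).trans hle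
    have := hp.two_le
    interval_cases (orderOf x)
    · exact absurd rfl h2
    · rfl
    · exact absurd hp (by decide)
  refine ⟨h3, (rot0 (h.add hx) (h3 ▸ pow_orderOf_eq_one x) hne he.symm ?_).1, fun h9 => ?_⟩
  · have e2 : x * x * dp tz * (x * x)⁻¹ = x * dp e * x⁻¹ := by rw [he]; group
    rcases hcls (x * x) (H.mul_mem hx hx) with e1 | e1 | e1
    · have := hxD 2 (by rw [sq]; exact h.cent_z (H.mul_mem hx hx) (by rw [← mul_inv_eq_iff_eq_mul, e1]))
      rw [h3] at this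
      omega
    · rw [e2, he] at e1
      exact absurd (dp_inj (by simpa [he] using e1)) hez
    · rw [← e2, e1]
  · omega

theorem exists_rot {d : T3} (hd : nc d) {k : P6} (hk : k ∈ H) (e : k * dp d * k⁻¹ = dp tz) :
    ∃ y ∈ H, y ≠ 1 ∧ y ^ 3 = 1 ∧ y * dp tz * y⁻¹ = dp d ∧ y * dp d * y⁻¹ = dp (d * tz) := by
  have e' : k⁻¹ * dp tz * k = dp d := by rw [← e]; group
  have hc : ∀ g ∈ H, g * dp d = dp d * g → k * g * k⁻¹ ∈ dp.range := fun g hg hc =>
    h.cent_z (H.mul_mem (H.mul_mem hk hg) (H.inv_mem hk)) (by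
      rw [← e]
      calc _ = k * (g * dp d) * k⁻¹ := by group
        _ = _ := by rw [hc]; group)
  obtain ⟨u, hu⟩ := hc _ (h.mem tz) (by rw [← map_mul, ← map_mul, d_z])
  have hnu : nc u := ⟨dp_inj (by rw [map_mul, hu, map_one, ← sq, conj_pow, ← map_pow,
      show tz ^ 2 = 1 by decide, map_one]; group),
    fun e1 => absurd (dp_inj (by simpa [e1] using hu.symm) : tz = 1) (by decide),
    fun e1 => hd.2.2 (dp_inj (mul_left_cancel (mul_right_cancel (e.trans (e1 ▸ hu)))))⟩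
  obtain ⟨f, hf⟩ := d_swap u hnu
  obtain ⟨g, hg⟩ := d_swap d hd
  set s := k⁻¹ * dp f * k with hs
  have hsH : s ∈ H := H.mul_mem (H.mul_mem (H.inv_mem hk) (h.mem f)) hk
  have s1 : s * dp d * s⁻¹ = dp d := by
    rw [← e', hs]
    calc _ = k⁻¹ * (dp f * dp tz * (dp f)⁻¹) * k := by group
      _ = _ := by rw [← map_mul, d_z, map_mul]; group
  have s2 : s * dp tz * s⁻¹ = dp (d * tz) := by
    calc _ = k⁻¹ * (dp f * (k * dp tz * k⁻¹) * (dp f)⁻¹) * k := by rw [hs]; group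
      _ = k⁻¹ * (k * dp tz * k⁻¹ * dp tz) * k := by
          rw [← hu, ← map_inv, ← map_mul, ← map_mul, hf, map_mul]
      _ = dp tz * (k⁻¹ * dp tz * k) := by group
      _ = _ := by rw [e', ← map_mul, d_z]
  have g2 : g * tz * g⁻¹ = tz := by rw [d_z]; group
  set r := dp g * s with hr
  have hrH : r ∈ H := H.mul_mem (h.mem g) hsH
  have hcj : ∀ x, r * x * r⁻¹ = dp g * (s * x * s⁻¹) * (dp g)⁻¹ := fun x => by rw [hr]; group
  have r1 : r * dp d * r⁻¹ = dp (d * tz) := by rw [hcj, s1, ← map_inv, ← map_mul, ← map_mul, hg]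
  have r2 : r * dp tz * r⁻¹ = dp d := by
    rw [hcj, s2, ← map_inv, ← map_mul, ← map_mul]
    congr 1
    revert hg
    exact (by decide : ∀ g d : T3, g * d * g⁻¹ = d * tz → g * (d * tz) * g⁻¹ = d) g d
  have r3 : r * dp (d * tz) * r⁻¹ = dp tz := by
    calc _ = r * dp d * r⁻¹ * (r * dp tz * r⁻¹) := by rw [map_mul]; group
      _ = _ := by rw [r1, r2, ← map_mul, mul_assoc, ← d_z, ← mul_assoc, hd.1, one_mul]
  have hcube : ∀ x, r ^ 3 * x * (r ^ 3)⁻¹ = r * (r * (r * x * r⁻¹) * r⁻¹) * r⁻¹ := fun x => by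
    simp only [pow_succ, pow_zero, one_mul, mul_inv_rev, mul_assoc]
  have c1 : r ^ 3 * dp tz * (r ^ 3)⁻¹ = dp tz := by rw [hcube, r2, r1, r3]
  have c2 : r ^ 3 * dp d * (r ^ 3)⁻¹ = dp d := by rw [hcube, r1, r3, r2]
  obtain ⟨m, hm⟩ := h.cent_z (H.pow_mem hrH 3) (mul_inv_eq_iff_eq_mul.1 c1)
  have h4 : ∀ x, r ^ 4 * x * (r ^ 4)⁻¹ = r * (r ^ 3 * x * (r ^ 3)⁻¹) * r⁻¹ := fun x => by
    rw [pow_succ' r 3]; group
  have y1 : r ^ 4 * dp tz * (r ^ 4)⁻¹ = dp d := by rw [h4, c1, r2]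
  refine ⟨r ^ 4, H.pow_mem hrH 4, fun e1 => hd.2.2 (dp_inj (by simpa [e1] using y1.symm)), ?_, y1,
    by rw [h4, c2, r1]⟩
  rw [← pow_mul, mul_comm, pow_mul, ← hm, ← map_pow, (by decide : ∀ m : T3, m ^ 4 = 1), map_one]

theorem one_class (hc : ∀ d, nc d → ∃ k ∈ H, k * dp d * k⁻¹ = dp tz) :
    Nonempty (H ≃* alternatingGroup (Fin 6)) ∨ (Nat.card H = 168 ∧ IsSimpleGroup H) := by
  let z : H := ⟨dp tz, h.mem tz⟩
  have hC : ∀ g : H, g ∈ C1[z] ↔ (g : P6) ∈ dp.range := fun g => by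
    rw [mem_centralizer_singleton_iff]
    refine ⟨fun e => h.cent_z g.2 (congrArg Subtype.val e), ?_⟩
    rintro ⟨d, hd⟩
    exact Subtype.ext (by simp only [coe_mul, z, ← hd, ← map_mul, d_z])
  have hodd : Odd C1[z].index := by
    rw [show C1[z] = dp.range.subgroupOf H from Subgroup.ext hC, ← Nat.not_even_iff_odd, even_iff_two_dvd]
    exact h.syl.not_dvd_relIndex
  let f : T3 →* C1[z] := (dp.codRestrict H h.mem).codRestrict _ fun d => (hC _).2 ⟨d, rfl⟩
  have hf : Function.Bijective f := ⟨fun a b e => dp_inj (congrArg (fun x : C1[z] => (x.1 : P6)) e),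
    fun g => ((hC g).1 g.2).imp fun d hd => Subtype.ext (Subtype.ext hd)⟩
  have h8 : BSW.IsD8 T3 := by
    have h4 : orderOf (ta * tb) = 4 := orderOf_eq_prime_pow (p := 2) (n := 1) (by decide) (by decide)
    have hm : ∀ g : T3, g ∈ zpowers (ta * tb) ↔ g.a = g.b := fun g => by
      refine ⟨?_, fun h => ?_⟩
      · rw [mem_zpowers_iff_mem_range_orderOf, h4]
        revert g; decide
      · obtain ⟨k, rfl⟩ := (by decide : ∀ g : T3, g.a = g.b → ∃ k : Fin 4, g = (ta * tb) ^ k.val) g h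
        exact pow_mem (mem_zpowers _) _
    refine ⟨ta * tb, ta, h4, by decide, by decide,
      by rw [hm]; decide, by simp only [hm]; decide⟩
  refine (BSW.a6_or_psl27 (t := z) (fun N hN => ?_) (orderOf_eq_prime (Subtype.ext (by
    simp [z, ← map_pow, show tz ^ 2 = 1 by decide])) fun e => absurd (dp_inj ((congrArg Subtype.val e).trans
      (map_one dp).symm)) (by decide)) (h8.of_equiv (MulEquiv.ofBijective f hf).symm) hodd).imp_right fun h1 => ?_
  · have hn := N.normal_of_index_eq_two hN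
    have hz : z ∈ N := by
      have : z = (f (ta * tb)).1 * (f (ta * tb)).1 := by rw [← coe_mul, ← map_mul, d_ab]; rfl
      exact this ▸ N.mul_self_mem_of_index_two hN _
    have hd : ∀ d, nc d → (f d).1 ∈ N := fun d hd => by
      obtain ⟨k, hk, e⟩ := hc d hd
      have := hn.conj_mem z hz (⟨k, hk⟩ : H)⁻¹
      convert this using 1
      refine Subtype.ext ?_
      change dp d = k⁻¹ * dp tz * k⁻¹⁻¹
      rw [← e]; group
    have hle : C1[z] ≤ N := fun g hg => by
      obtain ⟨d, hd'⟩ := hf.2 ⟨g, hg⟩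
      rw [show g = (f d).1 from (congrArg Subtype.val hd').symm, d_gen d]
      simp only [map_mul, map_pow, coe_mul, coe_pow]
      exact N.mul_mem (N.mul_mem (N.pow_mem (hd ta (by decide)) _) (N.pow_mem (hd tb (by decide)) _))
        (N.pow_mem hz _)
    exact absurd (hodd.of_dvd_nat (index_dvd_of_le hle)) (by rw [hN]; decide)
  · have : Fact (Nat.Prime 7) := ⟨by norm_num⟩
    obtain ⟨e⟩ := h1.2 (ZMod 7) (ZMod.card 7)
    have := Matrix.ProjectiveSpecialLinearGroup.rank_two_simple (F := ZMod 7) (by simp)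
    exact ⟨h1.1, e.isSimpleGroup⟩

theorem main {x : P6} (hx : x ∈ H) (hp : (orderOf x).Prime) (h2 : orderOf x ≠ 2) :
    (orderOf x = 3 ∧ nf x = 4 ∧ ¬ 9 ∣ Nat.card H) ∨ (orderOf x = 7 ∧ nf x = 1) := by
  by_cases hc : ∀ d, nc d → ∃ k ∈ H, k * dp d * k⁻¹ = dp tz
  swap
  · push Not at hc
    obtain ⟨d, hd, hn⟩ := hc
    exact Or.inl (h.two_class hd hn hx hp h2)
  rcases h.one_class hc with ⟨⟨e⟩⟩ | ⟨h168, hs⟩
  · exfalso
    have := Fact.mk Nat.prime_three
    obtain ⟨P, hP⟩ := Sylow.exists_subgroup_card_pow_prime 3 (n := 2) (G := H)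
      (by rw [Nat.card_congr e.toEquiv, BSW.card_a6]; norm_num)
    have h4 : ∀ g : P, g ≠ 1 → nf g = 4 := fun g hg => by
      have h9 : (g : H) ^ 9 = 1 := congrArg Subtype.val (show g ^ 9 = 1 from (hP ▸ pow_card_eq_one' :))
      obtain ⟨h3, h5⟩ := d_a6 (e g) (by rw [← coe_pow, ← map_pow, h9, map_one, coe_one])
      obtain ⟨t, t1, t2, t3, t4⟩ := h5 fun e1 => hg (Subtype.ext (e.injective (Subtype.ext
        (e1.trans (by simp)))))
      obtain ⟨t, rfl⟩ : ∃ s : H, (e s : Perm (Fin 6)) = t :=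
        ⟨e.symm ⟨t, Perm.mem_alternatingGroup.2 t4⟩, by simp⟩
      have inj : ∀ {a b : H}, (e a : Perm (Fin 6)) = e b → (a : P6) = b := fun h =>
        congrArg Subtype.val (e.injective (Subtype.ext h))
      refine h.rot g.1.2 (inj (a := g.1 ^ 3) (b := 1) (by simpa using h3)) t.2
        (inj (a := t * t) (b := 1) (by simpa using t1)) (fun e1 => t2 ?_)
        (inj (a := g * (g * t * g⁻¹) * g⁻¹) (b := g * t * g⁻¹ * t) (by simpa using t3))
      have : (g : H) * t * (g : H)⁻¹ = t := Subtype.ext e1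
      simpa using congrArg (fun x => (e x : Perm (Fin 6))) this
    classical
    have := Fintype.ofFinite P
    have := Fintype.ofFinite (Quotient (MulAction.orbitRel P V6))
    have h5 := MulAction.sum_card_fixedBy_eq_card_orbits_mul_card_group P V6
    have h6 : ∀ g : P, Fintype.card (MulAction.fixedBy V6 g) = nf g := fun g => by
      rw [← Nat.card_eq_fintype_card, Nat.card_coe_set_eq]; rfl
    rw [← Finset.add_sum_erase _ _ (Finset.mem_univ 1), Finset.sum_congr rfl fun g hg =>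
      (h6 g).trans (h4 g (Finset.ne_of_mem_erase hg)), Finset.sum_const, Finset.card_erase_of_mem (Finset.mem_univ _),
      Finset.card_univ, ← Nat.card_eq_fintype_card (α := P), hP] at h5
    simp at h5
    omega
  obtain ⟨ka, hka, ea⟩ := hc ta (by decide)
  obtain ⟨y, hy, hy1, hy3, y1, y2⟩ := h.exists_rot (by decide) hka ea
  have hya := rot0 (h.add hy) hy3 (by decide) y1 y2
  rcases S168.orders h168 ⟨x, hx⟩ with e | e | e | e | e <;> rw [orderOf_mk] at e
  · exact absurd (e ▸ hp) Nat.not_prime_one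
  · exact absurd e h2
  · obtain ⟨c, hc⟩ := isConj_iff.1 (S168.conj3 h168 (s := ⟨y, hy⟩) (t := ⟨x, hx⟩)
      (by rw [orderOf_mk]; exact orderOf_eq_prime hy3 hy1) (by rw [orderOf_mk, e]))
    refine Or.inl ⟨e, ?_, by rw [h168]; norm_num⟩
    rw [← show (c : P6) * y * (c : P6)⁻¹ = x from congrArg Subtype.val hc, nf_conj, hya.1]
  · exact absurd (e ▸ hp) (by decide)
  refine Or.inr ⟨e, ?_⟩
  by_contra hne
  have h7 := nf_modEq (p := 7) (by norm_num) (e ▸ pow_orderOf_eq_one x)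
  have h8 : 4 < nf x := by unfold Nat.ModEq at h7; omega
  obtain ⟨u, hu, v, hv, huv, e1⟩ := Set.exists_ne_map_eq_of_ncard_lt_of_maps_to (t := {w | im tz w})
    (f := fun v => v + tz • v) (s := MulAction.fixedBy V6 x)
    (by rw [← Nat.card_coe_set_eq, Nat.card_eq_fintype_card]; exact d_imz.trans_lt h8) fun v _ => ⟨v, rfl⟩
  have hw0 : u + v ≠ 0 := fun e => huv ((add_eq_iff.1 e).trans (add_zero v))
  have hwz : tz • (u + v) = u + v := by
    rw [smul_add', add_eq_iff.1 ((add_comm _ _).trans e1), add_assoc, add_assoc, add_self, add_zero]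
  let L := MulAction.stabilizer H (u + v)
  have hxL : (⟨x, hx⟩ : H) ∈ L := by
    change x (u + v) = u + v
    rw [h.add hx, show x u = u from hu, show x v = v from hv]
  have hzL : (⟨dp tz, h.mem tz⟩ : H) ∈ L := hwz
  have hz2 : orderOf (⟨dp tz, h.mem tz⟩ : H) = 2 := by
    rw [orderOf_mk, orderOf_injective dp dp_inj]
    exact orderOf_eq_prime (by decide) (by decide)
  have hne : L ≠ ⊤ := fun e => by
    obtain ⟨kb, hkb, eb⟩ := hc tb (by decide)
    obtain ⟨y', hy', -, hy3', y1', y2'⟩ := h.exists_rot (by decide) hkb eb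
    have a1 := (hya.2 _ (e.ge (mem_top (⟨y, hy⟩ : H))) hwz).resolve_left hw0
    have a2 := ((rot0 (h.add hy') hy3' (by decide) y1' y2').2 _ (e.ge (mem_top (⟨y', hy'⟩ : H)))
      hwz).resolve_left hw0
    exact absurd (a1.symm.trans a2) (by decide)
  have hx7 : orderOf (⟨x, hx⟩ : H) = 7 := by rw [orderOf_mk, e]
  have d7 := hx7 ▸ L.orderOf_dvd_natCard hxL
  have d2 := hz2 ▸ L.orderOf_dvd_natCard hzL
  have hle := S168.card_le h168 hne
  have hpos : 0 < Nat.card L := Nat.card_pos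
  have h14 : Nat.card L = 14 := by omega
  have hc7 : Nat.card (zpowers (⟨x, hx⟩ : H)) = 7 := by rw [Nat.card_zpowers, hx7]
  let P : Sylow 7 H := Sylow.ofCard (zpowers ⟨x, hx⟩) (by
    rw [hc7, h168, show 168 = 7 * 24 by norm_num, Nat.factorization_mul_apply_of_coprime (by norm_num),
      Nat.Prime.factorization_self (by norm_num), Nat.factorization_eq_zero_of_not_dvd (by norm_num)]; simp)
  have hi := relIndex_mul_card (zpowers_le.2 hxL)
  rw [hc7, h14] at hi
  have hn : L ≤ N[zpowers (⟨x, hx⟩ : H)] := (normal_subgroupOf_iff_le_normalizer (zpowers_le.2 hxL)).1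
    (normal_of_index_eq_two (show (zpowers _).relIndex L = 2 by omega))
  have := card_dvd_of_le hn
  rw [h14, show Nat.card N[zpowers (⟨x, hx⟩ : H)] = 21 from S168.card_normalizer7 h168 P] at this
  omega

end Lin
end Cfsg.Lib.FT.VV
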