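import Cfsg.Agent.Lib.SC2.Lin2

/-!
# Sylow 2-subgroups `(V ⊕ V*) D₈`: strong closure
-/

set_option autoImplicit false

namespace Cfsg.Lib.FT.VV
open Subgroup Cfsg.Lib Cfsg.Lib.FT Equiv

variable {G : Type*} [Group G]

def Act (w : V6 → G) (x : G) (d : T3) : Prop := ∀ v, x * w v * x⁻¹ = w (d • v)

structure Mod (A S : Subgroup G) (w : V6 → G) : Prop where
  add : ∀ u v, w (u + v) = w u * w v
  ker : ∀ v, w v = 1 → v = 0
  mem : ∀ x, x ∈ A ↔ ∃ v, w v = x
  syl : IsSylowIn 2 S ⊤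
  le : A ≤ S
  act : ∀ x ∈ S, ∃ d, Act w x d ∧ (d = 1 → x ∈ A)
  full : ∀ d, ∃ x ∈ S, Act w x d
  uniq : ∀ B ≤ S, IsMulCommutative B → Nat.card B = 64 → B = A

variable {w : V6 → G} {x y : G} {d e : T3}

theorem Act.mul (h : Act w x d) (h' : Act w y e) : Act w (x * y) (d * e) := fun v => by
  rw [mul_smul, ← h, ← h']; group

theorem Act.inv (h : Act w x d) : Act w x⁻¹ d⁻¹ := fun v => by
  have := h (d⁻¹ • v)
  rw [smul_inv_smul] at this
  rw [← this]; group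

theorem mem_normalizer_of_conj_le' [Finite G] {A : Subgroup G} {g : G} (h : g •ᶜ A ≤ A) : g ∈ N[A] :=
  conj_eq_iff_mem_normalizer.1 (eq_of_le_of_card_ge h (card_conj _ _).ge)

namespace Mod
variable {A S : Subgroup G} (h : Mod A S w)
include h

theorem w_mem (v : V6) : w v ∈ A := (h.mem _).2 ⟨v, rfl⟩
theorem w_zero : w 0 = 1 := by simpa using h.add 0 0
theorem w_sq (v : V6) : w v * w v = 1 := by rw [← h.add, add_self, h.w_zero]
theorem w_inv (v : V6) : (w v)⁻¹ = w v := inv_eq_of_mul_eq_one_right (h.w_sq v)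
theorem inj : Function.Injective w := fun u v e =>
  (add_eq_iff.1 (h.ker (u + v) (by rw [h.add, e, h.w_sq]))).trans (add_zero v)
theorem ea : IsElementaryAbelian 2 A := by
  refine ⟨⟨⟨fun x y => Subtype.ext ?_⟩⟩, fun x hx => ?_⟩
  · obtain ⟨u, hu⟩ := (h.mem _).1 x.2
    obtain ⟨v, hv⟩ := (h.mem _).1 y.2
    simp only [coe_mul, ← hu, ← hv, ← h.add, add_comm]
  · obtain ⟨u, rfl⟩ := (h.mem _).1 hx
    rw [sq, h.w_sq]

theorem card_inf (X : Subgroup G) : Nat.card ↥(A ⊓ X) = Nat.card {v // w v ∈ X} := by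
  refine (Nat.card_congr (Equiv.ofBijective (fun v : {v // w v ∈ X} => (⟨w v, h.w_mem v, v.2⟩ : ↥(A ⊓ X)))
    ⟨fun u v e => Subtype.ext (h.inj (congrArg Subtype.val e)), ?_⟩)).symm
  rintro ⟨x, hx, hx'⟩
  obtain ⟨v, rfl⟩ := (h.mem _).1 hx
  exact ⟨⟨v, hx'⟩, rfl⟩

theorem card : Nat.card A = 64 := by
  have := h.card_inf ⊤
  rw [inf_top_eq] at this
  simpa using this

theorem uq (h1 : Act w x d) (h2 : Act w x e) : d = e := by
  refine dp_inj (Equiv.ext fun v => h.inj ((h1 v).symm.trans (h2 v)))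

theorem act_one (hx : x ∈ C[A]) : Act w x 1 := fun v => by
  rw [one_smul, ← hx _ (h.w_mem v)]; group

theorem mem_of_act (hx : x ∈ S) (h1 : Act w x 1) : x ∈ A := by
  obtain ⟨d, h2, h3⟩ := h.act x hx
  exact h3 (h.uq h2 h1)

theorem mem_C1 (h1 : Act w x d) {v : V6} : w v ∈ C1[x] ↔ d • v = v := by
  rw [mem_centralizer_singleton_iff, eq_comm, ← mul_inv_eq_iff_eq_mul, h1, h.inj.eq_iff]

theorem comm_eq (h1 : Act w x d) (v : V6) : w v * x * (w v)⁻¹ = w (v + d • v) * x := by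
  rw [h.add, ← h1, h.w_inv]; group

theorem conj (g : G) : Mod (g •ᶜ A) (g •ᶜ S) fun v => g * w v * g⁻¹ := by
  have hA : ∀ {x d}, Act w x d → Act (fun v => g * w v * g⁻¹) (g * x * g⁻¹) d := fun h v => by
    beta_reduce; rw [← h]; group
  refine ⟨fun u v => by rw [h.add]; group, fun v e => h.ker v (by simpa using e), fun x => ⟨?_, ?_⟩,
    conj_top g ▸ h.syl.map_conj g, map_mono h.le, ?_, fun d => ?_, fun B hB hc h64 => ?_⟩
  · rintro ⟨x, hx, rfl⟩
    obtain ⟨v, rfl⟩ := (h.mem _).1 hx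
    exact ⟨v, rfl⟩
  · rintro ⟨v, rfl⟩
    exact conj_mem_conj (h.w_mem v) g
  · rintro _ ⟨x, hx, rfl⟩
    obtain ⟨d, h1, h2⟩ := h.act x hx
    exact ⟨d, hA h1, fun e => conj_mem_conj (h2 e) g⟩
  · obtain ⟨x, hx, h1⟩ := h.full d
    exact ⟨_, conj_mem_conj hx g, hA h1⟩
  · rw [← h.uniq (g⁻¹ •ᶜ B) (le_conj_iff.1 hB) inferInstance (by rw [card_conj, h64]),
      map_conj_map_conj_inv]

variable [Finite G]

theorem exists_ge {P : Subgroup G} (hP : IsPGroup 2 P) (hAP : A ≤ P) : ∃ S' w', Mod A S' w' ∧ P ≤ S' := by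
  obtain ⟨k, -, hk⟩ := h.syl.exists_conj_le hP le_top
  have h1 : k •ᶜ A = A := h.uniq _ ((map_mono hAP).trans hk) (by have := h.ea.1; infer_instance)
    (by rw [card_conj, h.card])
  have h2 := h.conj k⁻¹
  rw [← h1, map_conj_inv_map_conj] at h2
  exact ⟨_, _, h2, le_conj_iff.2 (by rwa [inv_inv])⟩

theorem exists_conj {M : Subgroup G} (hM : A ≤ M) {g : G} (hg : g •ᶜ A ≤ M) : ∃ m ∈ M, m •ᶜ (g •ᶜ A) = A := by
  have h2 := elemAb_isPGroup h.ea
  obtain ⟨P, hP, hAP⟩ := exists_isSylowIn_ge h2 hM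
  obtain ⟨k, hk, hle⟩ := hP.exists_conj_le (isPGroup_conj_iff.2 h2) hg
  obtain ⟨S', w', h', hS'⟩ := h.exists_ge hP.isPGroup hAP
  exact ⟨k, hk, h'.uniq _ (hle.trans hS') (by have := h.ea.1; infer_instance)
    (by rw [card_conj, card_conj, h.card])⟩

omit [Finite G] in
theorem inv_act (hx : x ∈ S) (hxA : x ∉ A) (h2 : x * x = 1) : ∃ d, Act w x d ∧ d * d = 1 ∧ d ≠ 1 := by
  obtain ⟨d, h1, h3⟩ := h.act x hx
  exact ⟨d, h1, h.uq (h1.mul h1) (h2 ▸ h.act_one (one_mem _)), fun e => hxA (h3 e)⟩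

omit [Finite G] in
theorem card_C1 (hx : x ∈ S) (hxA : x ∉ A) (h2 : x * x = 1) : Nat.card ↥(A ⊓ C1[x]) = 16 := by
  obtain ⟨d, h1, h3, h4⟩ := h.inv_act hx hxA h2
  simp only [h.card_inf, h.mem_C1 h1, Nat.card_eq_fintype_card, d_fix d h3 h4]

omit [Finite G] in
theorem card_le {F : Subgroup G} (hS : F ≤ S) (s : Set T3) (hs : ∀ f ∈ F, ∀ d, Act w f d → d ∈ s) :
    Nat.card F ≤ s.ncard * Nat.card ↥(A ⊓ F) := by
  choose φ hφ hφ' using fun x : F => h.act x (hS x.2)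
  let ψ : F →* T3 := MonoidHom.mk' φ fun x y => h.uq (hφ _) ((hφ x).mul (hφ y))
  have h1 := ψ.ker.index_mul_card
  have h2 : ψ.ker = A.subgroupOf F := Subgroup.ext fun x =>
    ⟨hφ' x, fun hx => h.uq (hφ x) (h.act_one (elemAb_le_centralizer h.ea hx))⟩
  rw [index_ker, h2, ← card_map_of_injective F.subtype_injective, subgroupOf_map_subtype] at h1
  rw [← h1]
  refine Nat.mul_le_mul_right _ ?_
  rw [← SetLike.coe_sort_coe, Nat.card_coe_set_eq]
  refine Set.ncard_le_ncard ?_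
  rintro _ ⟨x, rfl⟩
  exact hs x x.2 _ (hφ x)

theorem card_two (hx : Act w x d) (hy : Act w y e) (h1 : d * d = 1) (h2 : d ≠ 1) (h3 : e ≠ 1) (h4 : d ≠ e)
    {D : Subgroup G} (hD : D ≤ A ⊓ (C1[x] ⊓ C1[y])) (h8 : 8 ≤ Nat.card D) (v : V6) :
    w (v + d • v) ∈ D := by
  have h5 : Nat.card ↥(A ⊓ (C1[x] ⊓ C1[y])) = Fintype.card {v : V6 // d • v = v ∧ e • v = v} := by
    rw [h.card_inf]
    simp only [mem_inf, h.mem_C1 hx, h.mem_C1 hy, Nat.card_eq_fintype_card]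
  have h6 := card_le_of_le hD
  rcases d_fix2 d e h1 h2 h3 h4 with h7 | ⟨h7, h9⟩
  · omega
  · rw [eq_of_le_of_card_ge hD (by omega)]
    refine ⟨h.w_mem _, (h.mem_C1 hx).2 ?_, (h.mem_C1 hy).2 (h9 v)⟩
    rw [smul_add', ← mul_smul, h1, one_smul, add_comm]

theorem le_normalizer {F : Subgroup G} (hF : IsElementaryAbelian 2 F) (hS : F ≤ S) (h32 : Nat.card F = 32) :
    A ≤ N[F] := by
  intro a ha
  obtain ⟨v, rfl⟩ := (h.mem _).1 ha
  refine mem_normalizer_of_conj_le' ?_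
  rintro _ ⟨f, hf, rfl⟩
  obtain ⟨d, hd, -⟩ := h.act f (hS hf)
  change w v * f * (w v)⁻¹ ∈ F
  rw [h.comm_eq hd]
  refine F.mul_mem ?_ hf
  by_cases h1 : d = 1
  · rw [h1, one_smul, add_self, h.w_zero]; exact one_mem _
  have hsq : ∀ {f d}, f ∈ F → Act w f d → d * d = 1 := fun hf hd =>
    h.uq (hd.mul hd) (by rw [← sq, hF.2 _ hf]; exact h.act_one (one_mem _))
  have hcm : ∀ {f d g e}, f ∈ F → Act w f d → g ∈ F → Act w g e → d * e = e * d := fun hf hd hg he =>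
    h.uq (hd.mul he) (by rw [elemAb_le_centralizer hF hg _ hf]; exact he.mul hd)
  have hC : ∀ {f}, f ∈ F → F ≤ C1[f] := fun hf => (elemAb_le_centralizer hF).trans (centralizer_le_singleton hf)
  by_cases h2 : ∃ g ∈ F, ∃ e, Act w g e ∧ e ≠ 1 ∧ d ≠ e
  · obtain ⟨g, hg, e, he, h3, h4⟩ := h2
    have h5 := h.card_le hS {1, d, e, d * e} fun f' hf' d' hd' => d_four d e d' (hsq hf hd) (hsq hg he)
      (hsq hf' hd') h1 h3 h4 (hcm hf hd hg he) (hcm hf' hd' hf hd) (hcm hf' hd' hg he)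
    have h6 := ncard_four 1 d e (d * e)
    exact (h.card_two hd he (hsq hf hd) h1 h3 h4 (D := A ⊓ F) (inf_le_inf_left _ (le_inf (hC hf) (hC hg)))
      (by nlinarith) v).2
  · push Not at h2
    have h5 := h.card_le hS {1, d} fun f' hf' d' hd' => by
      by_cases h3 : d' = 1
      · exact Or.inl h3
      · exact Or.inr (h2 f' hf' d' hd' h3).symm
    rw [Set.ncard_pair (Ne.symm h1)] at h5
    have h6 := h.card_C1 (hS hf) (fun e => h1 (h.uq hd (h.act_one (elemAb_le_centralizer h.ea e))))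
      (by rw [← sq, hF.2 _ hf])
    refine ((eq_of_le_of_card_ge (inf_le_inf_left A (hC hf)) (by omega)).ge ⟨h.w_mem _, (h.mem_C1 hd).2 ?_⟩).2
    rw [smul_add', ← mul_smul, hsq hf hd, one_smul, add_comm]

theorem scl : SCl A := by
  refine SCl.of_sylow h.syl fun x hx g hg => ?_
  by_contra hxA
  have hAC := elemAb_le_centralizer h.ea
  have hx2 : x ^ 2 = 1 := by simpa using h.ea.2 _ hg
  set W := A ⊓ C1[x] with hW
  have hW16 : Nat.card W = 16 := h.card_C1 hx hxA (sq x ▸ hx2)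
  set F := W ⊔ zpowers x with hF
  have hWx : W ≤ C[zpowers x] := by rw [centralizer_zpowers]; exact inf_le_right
  have hFe : IsElementaryAbelian 2 F := elemAb_sup (elemAb_mono h.ea inf_le_left) (elemAb_zpowers hx2) hWx
  have hFC := elemAb_le_centralizer hFe
  have hxF : x ∈ F := mem_sup_right (mem_zpowers x)
  have hFx : F ≤ C1[x] := hFC.trans (centralizer_le_singleton hxF)
  have hAF : A ⊓ F = W := le_antisymm (inf_le_inf_left _ hFx) (le_inf inf_le_left le_sup_left)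
  have hx1 : x ≠ 1 := fun e => hxA (e ▸ one_mem _)
  have hF32 : Nat.card F = 32 := by
    have h1 := relIndex_dvd_card W (zpowers x)
    rw [Nat.card_zpowers, orderOf_eq_prime hx2 hx1, Nat.dvd_prime Nat.prime_two, relIndex_eq_one, zpowers_le] at h1
    rw [hF, card_sup_eq_mul_relIndex' (hWx.trans (centralizer_le_normalizer _)), hW16,
      h1.resolve_left fun e => hxA e.1]
  have hWF : W.relIndex F = 2 := by
    have : W.relIndex F * _ = Nat.card F := relIndex_mul_card (le_sup_left : W ≤ F)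
    rw [hW16] at this
    omega
  have hWm : ∀ a ∈ F, ∀ b ∈ F, a ∉ W → b ∉ W → a * b ∈ W := fun a ha b hb h1 h2 =>
    (mul_mem_iff_of_index_two hWF (a := ⟨a, ha⟩) (b := ⟨b, hb⟩)).2 (iff_of_false h1 h2)
  have hFS : F ≤ S := sup_le (inf_le_left.trans h.le) (zpowers_le.2 hx)
  -- a conjugate of `A` containing `x` and normalized by `F`
  obtain ⟨T, hT, hFT⟩ := exists_isSylowIn_ge (elemAb_isPGroup hFe) hFx
  have hx' : x ∈ g⁻¹ •ᶜ A := ⟨_, hg, by simp [mul_assoc]⟩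
  obtain ⟨c, hc, hcT⟩ := hT.exists_conj_le (isPGroup_conj_iff.2 (elemAb_isPGroup h.ea))
    ((elemAb_le_centralizer (elemAb_conj h.ea g⁻¹)).trans (centralizer_le_singleton hx'))
  have hxA' : x ∈ c •ᶜ (g⁻¹ •ᶜ A) := ⟨x, hx', by
    change c * x * c⁻¹ = x
    rw [mem_centralizer_singleton_iff.1 hc]; group⟩
  rw [conj_conj] at hcT hxA'
  set k := c * g⁻¹
  obtain ⟨S', w', h', hTS⟩ := (h.conj k).exists_ge hT.isPGroup hcT
  have hA'C := elemAb_le_centralizer h'.ea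
  have hA'F := h'.le_normalizer hFe (hFT.trans hTS) hF32
  have key : ∀ X : Subgroup G, A ≤ N[X] → k •ᶜ A ≤ N[X] → Nat.card ↥(k •ᶜ A ⊓ X) = Nat.card ↥(A ⊓ X) := by
    intro X h1 h2
    obtain ⟨m, hm, e⟩ := h.exists_conj h1 h2
    rw [← card_conj m, conj_inf, e, conj_eq_iff_mem_normalizer.2 hm]
  set W' := k •ᶜ A ⊓ F with hW'
  have hW'16 : Nat.card W' = 16 := by rw [key F (h.le_normalizer hFe hFS hF32) hA'F, hAF, hW16]
  have hW'F : W'.relIndex F = 2 := by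
    have : W'.relIndex F * Nat.card W' = _ := relIndex_mul_card (inf_le_right : W' ≤ F)
    rw [hW'16] at this
    omega
  have hW'm : ∀ a ∈ F, ∀ b ∈ F, a ∉ W' → b ∉ W' → a * b ∈ W' := fun a ha b hb h1 h2 =>
    (mul_mem_iff_of_index_two hW'F (a := ⟨a, ha⟩) (b := ⟨b, hb⟩)).2 (iff_of_false h1 h2)
  have hD8 : 8 ≤ Nat.card ↥(W ⊓ W') := by
    have h1 := relIndex_mul_card_inf W W'
    have h2 := relIndex_le_of_le_right (H := W) (inf_le_right : W' ≤ F) (by omega)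
    nlinarith
  have hAD : A ≤ C[W ⊓ W'] := hAC.trans (centralizer_mono (inf_le_left.trans inf_le_left))
  have hFD : F ≤ C[W ⊓ W'] := hFC.trans (centralizer_mono (inf_le_right.trans inf_le_right))
  obtain ⟨R, hR, hle⟩ := exists_isSylowIn_ge (h.syl.isPGroup.to_le (sup_le h.le hFS)) (sup_le hAD hFD)
  by_cases hRW : R ≤ C[W]
  · obtain ⟨u, hu, hu'⟩ : ∃ u ∈ W, u ∉ k •ᶜ A := by
      by_contra! hc
      have : W' = F := inf_eq_right.2 (sup_le hc (zpowers_le.2 hxA'))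
      rw [this] at hW'16
      omega
    have huF : u ∈ F := mem_sup_left hu
    obtain ⟨d, hd, h1, h2⟩ := h'.inv_act (hTS (hFT huF)) hu' (by rw [← sq, hFe.2 u huF])
    have h3 : ∀ v, w' (v + d • v) ∈ F := fun v => (F.mul_mem_cancel_right huF).1
      (h'.comm_eq hd v ▸ (mem_normalizer_iff.1 (hA'F (h'.w_mem v)) u).1 huF)
    obtain ⟨v, hv, hv'⟩ : ∃ v, v + d • v ≠ 0 ∧ w' (v + d • v) ∈ W := by
      obtain ⟨a, b, ha, hb, hab⟩ := d_two d h1 h2
      by_contra! hc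
      refine hc (a + b) (fun e => hab ?_) ?_
      · rw [smul_add', add_add_add_comm, add_eq_iff, add_zero] at e
        exact e
      · rw [smul_add', add_add_add_comm, h'.add]
        exact hWm _ (h3 a) _ (h3 b) (hc a ha) (hc b hb)
    have h4 : w' v ∈ C[W ⊓ W'] ⊓ N[W] := by
      refine ⟨hA'C.trans (centralizer_mono (inf_le_right.trans inf_le_left)) (h'.w_mem v),
        mem_normalizer_of_conj_le' ?_⟩
      rintro _ ⟨y, hy, rfl⟩
      change w' v * y * (w' v)⁻¹ ∈ W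
      by_cases hy' : y ∈ W'
      · rwa [← hA'C (h'.w_mem v) y hy'.1, mul_inv_cancel_right]
      · have h5 := hW'm y (mem_sup_left hy) u⁻¹ (F.inv_mem huF) hy' fun e => hu' (inv_mem_iff.1 e.1)
        have : w' v * y * (w' v)⁻¹ = y * u⁻¹ * (w' v * u * (w' v)⁻¹) := by
          rw [← mul_assoc, ← mul_assoc, hA'C (h'.w_mem v) _ h5.1]; group
        rw [this, h'.comm_eq hd]
        exact W.mul_mem (W.mul_mem hy (W.inv_mem hu)) (W.mul_mem hv' hu)
    obtain ⟨m, hm, hle'⟩ := (hR.mono (le_inf hR.le (hRW.trans (centralizer_le_normalizer _)))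
      inf_le_left).exists_conj_le (elemAb_isPGroup (elemAb_zpowers ((sq _).trans (h'.w_sq v)))) (zpowers_le.2 h4)
    have h5 := (mem_normalizer_iff.1 (normalizer_le_normalizer_centralizer W hm.2) _).2
      (hRW (hle' (conj_mem_conj (mem_zpowers _) m)))
    refine hv (h'.ker _ ?_)
    have := h'.comm_eq hd v
    rw [← h5 u hu, mul_inv_cancel_right] at this
    exact right_eq_mul.1 this
  · obtain ⟨r, hr, hrW⟩ := SetLike.not_le_iff_exists.1 hRW
    obtain ⟨S2, w2, h2, hRS⟩ := h.exists_ge hR.isPGroup (le_sup_left.trans hle)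
    obtain ⟨d, hd, h3, h4⟩ := h2.inv_act (hRS (hle (mem_sup_right hxF))) hxA (sq x ▸ hx2)
    obtain ⟨e, he, h5⟩ := h2.act r (hRS hr)
    have h6 := h2.card_two hd he h3 h4 (fun e => hrW (centralizer_mono inf_le_left (hAC (h5 e))))
      (fun e1 => hrW fun y hy => by
        obtain ⟨v, rfl⟩ := (h2.mem y).1 hy.1
        exact mem_centralizer_singleton_iff.1 ((h2.mem_C1 he).2 (e1 ▸ (h2.mem_C1 hd).1 hy.2)))
      (D := W ⊓ W') (le_inf (inf_le_left.trans inf_le_left) (le_inf (inf_le_left.trans inf_le_right)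
        fun y hy => mem_centralizer_singleton_iff.2 (hR.le hr y hy))) hD8
    have h7 : A ≤ N[W'] := fun a ha => by
      obtain ⟨v, rfl⟩ := (h2.mem _).1 ha
      refine mem_normalizer_of_conj_le' ?_
      rintro _ ⟨y, hy, rfl⟩
      change w2 v * y * (w2 v)⁻¹ ∈ W'
      by_cases hy' : y ∈ W
      · rwa [← hAC ha y hy'.1, mul_inv_cancel_right]
      · have h8 := hWm y hy.2 x⁻¹ (F.inv_mem hxF) hy' fun e => hxA (inv_mem_iff.1 e.1)
        have : w2 v * y * (w2 v)⁻¹ = y * x⁻¹ * (w2 v * x * (w2 v)⁻¹) := by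
          rw [← mul_assoc, ← mul_assoc, hAC ha _ h8.1]; group
        rw [this, h2.comm_eq hd]
        exact W'.mul_mem (W'.mul_mem hy (W'.inv_mem ⟨hxA', hxF⟩)) (W'.mul_mem (h6 v).2 ⟨hxA', hxF⟩)
    have h8 := key W' h7 ((hA'C.trans (centralizer_mono inf_le_left)).trans (centralizer_le_normalizer _))
    rw [inf_eq_right.2 inf_le_left] at h8
    exact hxA ((eq_of_le_of_card_ge (inf_le_right : A ⊓ W' ≤ W') h8.le).ge ⟨hxA', hxF⟩).1

theorem noTr : NoTr A := by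
  let ε : V6 ≃ A := Equiv.ofBijective (fun v => ⟨w v, h.w_mem v⟩) ⟨fun u v e => h.inj (congrArg Subtype.val e),
    fun x => ((h.mem x).1 x.2).imp fun v hv => Subtype.ext hv⟩
  let ρ : N[A] →* P6 := ε.symm.permCongrHom.toMonoidHom.comp ((MulAut.toPerm A).comp A.normalizerMonoidHom)
  have hρ : ∀ (n : N[A]) v, w (ρ n v) = n * w v * (n : G)⁻¹ := fun n v =>
    congrArg Subtype.val (ε.apply_symm_apply (A.normalizerMonoidHom n (ε v)))
  have hSN : S ≤ N[A] := h.scl.le_normalizer h.syl.isPGroup h.le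
  have hρd : ∀ (n : N[A]) d, Act w n d → ρ n = dp d := fun n d hd =>
    Equiv.ext fun v => h.inj ((hρ n v).trans (hd v))
  have hL : Lin ρ.range := by
    refine ⟨?_, ?_⟩
    · rintro _ ⟨n, rfl⟩ u v
      exact h.inj (by rw [h.add, hρ, hρ, hρ, h.add]; group)
    · obtain ⟨P, hP⟩ := (h.syl.mono hSN le_top).exists_sylow'
      have h1 := (IsSylowIn.of_sylow_top P).map ρ
      rw [hP, ← MonoidHom.range_eq_map] at h1
      convert h1 using 1
      refine le_antisymm ?_ ?_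
      · rintro _ ⟨d, rfl⟩
        obtain ⟨x, hx, hd⟩ := h.full d
        exact ⟨⟨x, hSN hx⟩, hx, hρd _ _ hd⟩
      · rintro _ ⟨n, hn, rfl⟩
        obtain ⟨d, hd, -⟩ := h.act n hn
        exact ⟨d, (hρd _ _ hd).symm⟩
  have key : ∀ p, p.Prime → p ≠ 2 → ∀ Q : Subgroup G, Q ≤ N[A] → IsPGroup p Q → Nat.card ↥(A ⊓ C[Q]) = 64 ∨
      (p = 3 ∧ Nat.card ↥(A ⊓ C[Q]) = 4) ∨ (p = 7 ∧ Nat.card ↥(A ⊓ C[Q]) ≤ 1) := fun p hp hp2 Q hQ hQp => by
    have := Fact.mk hp
    set Q' := (Q.subgroupOf N[A]).map ρ with hQ'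
    have hfix : ∀ v, w v ∈ C[Q] ↔ ∀ g ∈ Q', g v = v := fun v => by
      refine ⟨?_, fun hv q hq => ?_⟩
      · rintro hv _ ⟨n, hn, rfl⟩
        exact h.inj (by rw [hρ, hv n hn]; group)
      · have := hρ ⟨q, hQ hq⟩ v
        rw [hv _ ⟨⟨q, hQ hq⟩, hq, rfl⟩] at this
        exact mul_inv_eq_iff_eq_mul.1 this.symm
    simp only [h.card_inf, hfix]
    by_cases h1 : Q' = ⊥
    · left
      simp [h1]
    have hp' : IsPGroup p Q' := hQp.comap_subtype.map ρ
    obtain ⟨x, hx⟩ := exists_prime_orderOf_dvd_card' p (dvd_card_of_isPGroup_of_ne_bot hp' h1)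
    rw [← orderOf_coe] at hx
    have hQH : Q' ≤ ρ.range := map_le_range _ _
    right
    rcases hL.main (hQH x.2) (hx ▸ hp) (hx ▸ hp2) with ⟨e1, e2, e3⟩ | ⟨e1, e2⟩
    · refine Or.inl ⟨hx ▸ e1, ?_⟩
      have h3 : Q' = zpowers (x : P6) := by
        obtain ⟨j, hj⟩ := hp'.exists_card_eq
        have h4 := card_dvd_of_le hQH
        refine (eq_of_le_of_card_ge (zpowers_le.2 x.2) ?_).symm
        rw [Nat.card_zpowers, e1, hj, ← hx, e1]
        rw [hj, ← hx, e1] at h4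
        rcases j with _ | _ | j
        · norm_num
        · norm_num
        · exact absurd ((Dvd.intro (3 ^ j) (by ring)).trans h4) e3
      rw [← e2, nf, ← Nat.card_coe_set_eq]
      refine Nat.card_congr (Equiv.subtypeEquivRight fun v => ⟨fun hv => hv _ x.2, fun hv g hg => ?_⟩)
      exact (zpowers_le (H := MulAction.stabilizer P6 v)).2 hv (h3 ▸ hg)
    · refine Or.inr ⟨hx ▸ e1, ?_⟩
      rw [← e2, nf]
      exact Set.ncard_le_ncard (s := {v | ∀ g ∈ Q', g v = v}) fun v hv => hv _ x.2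
  intro m hm hd
  rw [h.card] at hd ⊢
  obtain ⟨j, hj, rfl⟩ := (Nat.dvd_prime_pow Nat.prime_two (m := 6)).1 hd
  interval_cases j
  · omega
  · omega
  · exact ⟨3, by norm_num, by norm_num, fun Q h1 h2 => by have := key 3 (by norm_num) (by norm_num) Q h1 h2; omega⟩
  · exact ⟨7, by norm_num, by norm_num, fun Q h1 h2 => by have := key 7 (by norm_num) (by norm_num) Q h1 h2; omega⟩
  · exact ⟨5, by norm_num, by norm_num, fun Q h1 h2 => by have := key 5 (by norm_num) (by norm_num) Q h1 h2; omega⟩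
  · exact ⟨31, by norm_num, by norm_num, fun Q h1 h2 => by
      have := key 31 (by norm_num) (by norm_num) Q h1 h2; omega⟩
  · exact ⟨3, by norm_num, by norm_num, fun Q h1 h2 => by have := key 3 (by norm_num) (by norm_num) Q h1 h2; omega⟩

theorem normal : (A ⊔ oddCore G).Normal := h.scl.normal_of_noTr h.ea h.noTr

end Mod
end Cfsg.Lib.FT.VV
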